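import Cfsg.Agent.H780.P9.Iface

/-!
# S5925, box H: the WP lemma of `plBeta3` (helper239)
-/

set_option autoImplicit false
set_option linter.style.longLine false

namespace Cfsg.Agent.H239.P9

open Matrix Cfsg.Agent.H879.E83 Cfsg.Agent.H780.P9

section
variable {F : Type*} [Field F] {g : F}

theorem fr9 (x : F) : (x ^ 3) ^ 3 = x ^ 9 := by rw [← pow_mul]

theorem pow80 {x : F} (h : x ^ 81 = x) (h0 : x ≠ 0) : x ^ 80 = 1 := by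
  have h1 : x ^ 80 * x = 1 * x := by rw [← pow_succ, h, one_mul]
  exact mul_right_cancel₀ h0 h1

/-- two factors with a given nonzero hermitian product -/
theorem second {x y : F} (hx : x ^ 81 = x) (hy : y ^ 81 = y) (h : x * y ^ 9 ≠ 0) :
    (x * y ^ 9) ^ 9 * (x ^ 79) ^ 9 = y := by
  have hx0 : x ≠ 0 := left_ne_zero_of_mul h
  have h1 : (x * y ^ 9) ^ 9 * (x ^ 79) ^ 9 = (x ^ 80) ^ 9 * y ^ 81 := by ring
  rw [h1, pow80 hx hx0, one_pow, one_mul, hy]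

theorem left_pow80 {x y : F} (hx : x ^ 81 = x) (h : x * y ^ 9 ≠ 0) : x ^ 80 = 1 :=
  pow80 hx (left_ne_zero_of_mul h)

variable {q p : Mt F} {m : F} {t : Fin 10 → F}

/-- the lanes of the last stage -/
theorem wp_B3c (c : Ctx g q p m t) (hpq : p = q) (h13 : p 1 3 = 0) (h14 : p 1 4 = 0) (h : WS3 g q p t 0 0) :
    WP g (Sol g q) plB3c (K40 g p t 0 0)
      [p 0 2, p 0 0, p 2 2, p 0 1 * p 0 1 ^ 9 + (p 0 0 * p 0 2 ^ 9 + (p 0 0 * p 0 2 ^ 9) ^ 9),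
        p 1 2 * p 1 2 ^ 9 + (p 0 2 * p 2 2 ^ 9 + (p 0 2 * p 2 2 ^ 9) ^ 9), p 0 3, p 2 4, p 0 4, p 2 3] := by
  have e0 := herm_exp' c.four.herm 0 0
  have e2 := herm_exp' c.four.herm 2 2
  rw [if_neg (by decide)] at e0 e2
  rw [c.sym 1 0, c.sym 2 0, c.sym 3 0, c.sym 4 0] at e0
  rw [c.sym 2 1, c.sym 2 0, c.sym 3 2, c.sym 4 2] at e2
  have a1 : (p 0 0 * p 0 2 ^ 9) ^ 9 = p 0 0 ^ 9 * p 0 2 := by
    have : (p 0 0 * p 0 2 ^ 9) ^ 9 = p 0 0 ^ 9 * p 0 2 ^ 81 := by ring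
    rw [this, c.p81]
  have a2 : (p 0 2 * p 2 2 ^ 9) ^ 9 = p 0 2 ^ 9 * p 2 2 := by
    have : (p 0 2 * p 2 2 ^ 9) ^ 9 = p 0 2 ^ 9 * p 2 2 ^ 81 := by ring
    rw [this, c.p81]
  have a3 : (p 0 3 * p 0 4 ^ 9) ^ 9 = p 0 3 ^ 9 * p 0 4 := by
    have : (p 0 3 * p 0 4 ^ 9) ^ 9 = p 0 3 ^ 9 * p 0 4 ^ 81 := by ring
    rw [this, c.p81]
  have a4 : (p 2 3 * p 2 4 ^ 9) ^ 9 = p 2 3 ^ 9 * p 2 4 := by
    have : (p 2 3 * p 2 4 ^ 9) ^ 9 = p 2 3 ^ 9 * p 2 4 ^ 81 := by ring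
    rw [this, c.p81]
  refine WP_df (x := p 0 3 * p 0 4 ^ 9) (congrArg (fun z => p 0 3 * z) (fr9 (p 0 4))) ?_
  refine WP_df (x := p 2 3 * p 2 4 ^ 9) (congrArg (fun z => p 2 3 * z) (fr9 (p 2 4))) ?_
  refine WP_fl ?_ rfl ?_
  · intro e he
    simp only [List.mem_cons, List.not_mem_nil, or_false] at he
    rcases he with rfl | rfl
    · have : p 0 1 * p 0 1 ^ 9 + (p 0 0 * p 0 2 ^ 9 + (p 0 0 * p 0 2 ^ 9) ^ 9) -
          (p 0 3 * p 0 4 ^ 9 + ((p 0 3 * p 0 4 ^ 9) ^ 3) ^ 3) = 0 := by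
        rw [fr9, a1, a3]
        linear_combination e0
      exact this
    · have : p 1 2 * p 1 2 ^ 9 + (p 0 2 * p 2 2 ^ 9 + (p 0 2 * p 2 2 ^ 9) ^ 9) -
          (p 2 3 * p 2 4 ^ 9 + ((p 2 3 * p 2 4 ^ 9) ^ 3) ^ 3) = 0 := by
        rw [fr9, a2, a4]
        linear_combination e2
      exact this
  · refine WP_df (x := 0) rfl (WP_sel (ls' := LS3 q) ?_ h)
    rw [← hpq]
    show [p 0 0, p 0 2, p 2 2, p 0 3, p 2 3, 0, p 0 4, p 2 4, 0] = LS3 p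
    rw [LS3, h13, h14]

/-- the choice of `q04`, `q23` -/
theorem wp_in (c : Ctx g q p m t) (hpq : p = q) (h13 : p 1 3 = 0) (h14 : p 1 4 = 0) (h : WS3 g q p t 0 0) :
    WP g (Sol g q) (.ksp (.k 35)
      (.or (.ex (.df .zero (.sel [0, 1, 2, 3, 4, 5, 6, 7, 9] plB3c)))
        (.exn (.df .zero (.sel [0, 1, 2, 3, 4, 5, 6, 9, 7] plB3c))))
      (.exn (.df (.mul (.k 37) (.fr (.fr (.v 8)))) (.sel [0, 1, 2, 3, 4, 5, 6, 7, 9] plB3c)))) (K40 g p t 0 0)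
      [p 0 2, p 0 0, p 2 2, p 0 1 * p 0 1 ^ 9 + (p 0 0 * p 0 2 ^ 9 + (p 0 0 * p 0 2 ^ 9) ^ 9),
        p 1 2 * p 1 2 ^ 9 + (p 0 2 * p 2 2 ^ 9 + (p 0 2 * p 2 2 ^ 9) ^ 9), p 0 3, p 2 4] := by
  have hB := wp_B3c c hpq h13 h14 h
  have hQ : QQ p 0 4 = p 0 4 * p 2 3 ^ 9 := rfl
  refine WP_ksp (fun h0 => ?_) (fun h0 => ?_)
  · have h1 : p 0 4 * p 2 3 ^ 9 = 0 := h0
    by_cases h2 : p 2 3 = 0
    · refine WP_or_left (WP_ex (p 0 4) (c.p81 _ _) (WP_df (x := 0) rfl (WP_sel ?_ hB)))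
      rw [h2]
      rfl
    · have h3 : p 0 4 = 0 := by
        rcases mul_eq_zero.1 h1 with h3 | h3
        · exact h3
        · exact absurd (pow_eq_zero_iff (by norm_num) |>.1 h3) h2
      refine WP_or_right (WP_exn (p 2 3) (pow80 (c.p81 _ _) h2) (WP_df (x := 0) rfl (WP_sel ?_ hB)))
      rw [h3]
      rfl
  · have h1 : p 0 4 * p 2 3 ^ 9 ≠ 0 := h0
    refine WP_exn (p 0 4) (left_pow80 (c.p81 _ _) h1) (WP_df (x := p 2 3) ?_ (WP_sel rfl hB))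
    have h2 : QQ p 0 4 ^ 9 * ((p 0 4 ^ 79) ^ 3) ^ 3 = p 2 3 := by
      rw [fr9, hQ]
      exact second (c.p81 _ _) (c.p81 _ _) h1
    exact h2

/-- **the WP lemma of `plBeta3`** -/
theorem wp_Beta3 (c : Ctx g q p m t) (hpq : p = q) (h13 : p 1 3 = 0) (h14 : p 1 4 = 0) (h : WS3 g q p t 0 0) :
    WC g q p t plBeta3 := by
  have e0 := herm_exp' c.four.herm 1 0
  have e2 := herm_exp' c.four.herm 1 2
  rw [if_neg (by decide), h13, h14, c.sym 1 0, c.sym 2 0] at e0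
  rw [if_neg (by decide), h13, h14, c.sym 1 0] at e2
  have z9 : (0 : F) ^ 9 = 0 := zero_pow (by norm_num)
  rw [z9] at e0 e2
  have hI := wp_in c hpq h13 h14 h
  have hQ : QQ p 0 3 = p 0 3 * p 2 4 ^ 9 := rfl
  refine WP_fl (ls' := [p 0 2, p 0 0, p 2 2, p 0 1 * p 0 1 ^ 9 + (p 0 0 * p 0 2 ^ 9 + (p 0 0 * p 0 2 ^ 9) ^ 9),
        p 1 2 * p 1 2 ^ 9 + (p 0 2 * p 2 2 ^ 9 + (p 0 2 * p 2 2 ^ 9) ^ 9)]) ?_ rfl ?_
  · intro e he
    simp only [List.mem_cons, List.not_mem_nil, or_false] at he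
    rcases he with rfl | rfl
    · have : p 0 0 * p 1 2 ^ 9 + p 0 1 * p 1 1 ^ 9 + p 0 2 * p 0 1 ^ 9 = 0 := by linear_combination e0
      exact this
    · have : p 0 2 * p 1 2 ^ 9 + p 1 2 * p 1 1 ^ 9 + p 2 2 * p 0 1 ^ 9 = 0 := by linear_combination e2
      exact this
  obtain ⟨e, he, hev⟩ : ∃ e ∈ ([.zero, (.pw 0), (.neg (.pw 0))] : List Ex), e.eval g (K33 g p t) [] = t 8 := by
    rcases c.tr 8 with h8 | h8 | h8
    · exact ⟨.zero, by simp, h8.symm⟩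
    · exact ⟨.pw 0, by simp, (pow_zero g).trans h8.symm⟩
    · exact ⟨.neg (.pw 0), by simp, (congrArg Neg.neg (pow_zero g)).trans h8.symm⟩
  refine WP_alt e he hev ?_
  refine WP_kf (x := QQ p 0 3) c.Q03.symm ?_
  refine WP_kf (x := QQ p 0 4) c.Q04.symm ?_
  refine WP_kf (x := QQ p 0 3 ^ 9) (fr9 (QQ p 0 3)) ?_
  refine WP_kf (x := QQ p 0 4 ^ 9) (fr9 (QQ p 0 4)) ?_
  refine WP_kf (x := 0) rfl ?_
  refine WP_kf (x := 0) rfl ?_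
  refine WP_ksp (fun h0 => ?_) (fun h0 => ?_)
  · have h1 : p 0 3 * p 2 4 ^ 9 = 0 := h0
    by_cases h2 : p 2 4 = 0
    · refine WP_or_left (WP_ex (p 0 3) (c.p81 _ _) (WP_df (x := 0) rfl (WP_sel ?_ hI)))
      rw [h2]
      rfl
    · have h3 : p 0 3 = 0 := by
        rcases mul_eq_zero.1 h1 with h3 | h3
        · exact h3
        · exact absurd (pow_eq_zero_iff (by norm_num) |>.1 h3) h2
      refine WP_or_right (WP_exn (p 2 4) (pow80 (c.p81 _ _) h2) (WP_df (x := 0) rfl (WP_sel ?_ hI)))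
      rw [h3]
      rfl
  · have h1 : p 0 3 * p 2 4 ^ 9 ≠ 0 := h0
    refine WP_exn (p 0 3) (left_pow80 (c.p81 _ _) h1) (WP_df (x := p 2 4) ?_ (WP_sel rfl hI))
    have h2 : QQ p 0 3 ^ 9 * ((p 0 3 ^ 79) ^ 3) ^ 3 = p 2 4 := by
      rw [fr9, hQ]
      exact second (c.p81 _ _) (c.p81 _ _) h1
    exact h2

end
end Cfsg.Agent.H239.P9
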